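import Mathlib
import Cfsg.Agent.Inv.SU3Syl

/-! Automorphisms of the Sylow 2-subgroup `UH F q` of `PSU₃(q)`, `q` even. -/

set_option autoImplicit false
set_option linter.unusedSectionVars false

namespace Cfsg.Agent.Hir

open Subgroup Class.U Cfsg.Agent.Inv

variable {F : Type*} [Field F] {q : ℕ} [hU : UF F q] [CharP F 2]

local notation "σ" => conj F q

/-- a pair of maps induced by an automorphism on `Q / Z` and `Z` -/
structure Iso (q : ℕ) [UF F q] (G H : F → F) : Prop where
  add : ∀ x y, G (x + y) = G x + G y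
  inj : ∀ x, G x = 0 → x = 0
  hadd : ∀ a b, conj F q a = a → conj F q b = b → H (a + b) = H a + H b
  hinj : ∀ a, conj F q a = a → H a = 0 → a = 0
  nrm : ∀ x, G x * conj F q (G x) = H (x * conj F q x)

theorem two_eq : (2 : F) = 0 := CharTwo.two_eq_zero

namespace Iso

variable {G H : F → F} (h : Iso q G H)
include h

theorem zero : G 0 = 0 := by
  have := h.add 0 0
  rw [add_zero] at this
  linear_combination -this

theorem hzero : H 0 = 0 := by
  have := h.nrm 0
  rw [h.zero] at this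
  simpa using this.symm

theorem bil (x y : F) : G x * σ (G y) + G y * σ (G x) = H (x * σ y + y * σ x) := by
  have e1 := h.nrm (x + y)
  have s1 : σ (x * σ x) = x * σ x := by simp [conj_conj, mul_comm]
  have s2 : σ (y * σ y) = y * σ y := by simp [conj_conj, mul_comm]
  have s3 : σ (x * σ y + y * σ x) = x * σ y + y * σ x := by simp [conj_conj, mul_comm, add_comm]
  have e2 : (x + y) * σ (x + y) = (x * σ x + y * σ y) + (x * σ y + y * σ x) := by
    rw [map_add]; ring
  rw [e2, h.hadd _ _ (by rw [map_add, s1, s2]) s3, h.hadd _ _ s1 s2, ← h.nrm, ← h.nrm, h.add,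
    map_add] at e1
  linear_combination e1

theorem semi_aux {l x y : F} (hl : σ l = l) (hx : x ≠ 0) (hy : y ≠ 0)
    (hb : x * σ y + y * σ x ≠ 0) : G (l * x) / G x = G (l * y) / G y := by
  have key : ∀ z : F, z ≠ 0 → σ (G (l * z) / G z) = G (l * z) / G z := by
    intro z hz
    have hz' : G z ≠ 0 := fun e => hz (h.inj z e)
    have hz'' : σ (G z) ≠ 0 := conj_ne_zero.2 hz'
    have := h.bil z (l * z)
    rw [show z * σ (l * z) + l * z * σ z = 0 by
      rw [map_mul, hl]; linear_combination (l * z * σ z) * two_eq (F := F), h.hzero] at this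
    rw [map_div₀, div_eq_div_iff hz'' hz']
    linear_combination this - (G (l * z) * σ (G z)) * two_eq (F := F)
  have hxy : x + y ≠ 0 := by
    intro e
    apply hb
    have : y = -x := by linear_combination e
    rw [this, map_neg]
    linear_combination (-(x * σ x)) * two_eq (F := F)
  have hGx : G x ≠ 0 := fun e => hx (h.inj x e)
  have hGy : G y ≠ 0 := fun e => hy (h.inj y e)
  have hGxy : G (x + y) ≠ 0 := fun e => hxy (h.inj _ e)
  have hB : G x * σ (G y) + G y * σ (G x) ≠ 0 := by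
    rw [h.bil]
    exact fun e => hb (h.hinj _ (by simp [conj_conj, mul_comm, add_comm]) e)
  set a := G (l * x) / G x with ha
  set b := G (l * y) / G y with hb'
  set c := G (l * (x + y)) / G (x + y) with hc
  have sa : σ a = a := key x hx
  have sb : σ b = b := key y hy
  have sc : σ c = c := key _ hxy
  have ea : G (l * x) = a * G x := by rw [ha, div_mul_cancel₀ _ hGx]
  have eb : G (l * y) = b * G y := by rw [hb', div_mul_cancel₀ _ hGy]
  have ec : G (l * (x + y)) = c * G (x + y) := by rw [hc, div_mul_cancel₀ _ hGxy]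
  rw [mul_add, h.add, h.add, ea, eb] at ec
  have ec' := congrArg σ ec
  simp only [map_add, map_mul, sa, sb, sc] at ec'
  have e1 : (a - c) * (G x * σ (G y) + G y * σ (G x)) = 0 := by
    linear_combination (σ (G y)) * ec + (G y) * ec' -
      ((b - c) * G y * σ (G y)) * two_eq (F := F)
  have e2 : (b - c) * (G x * σ (G y) + G y * σ (G x)) = 0 := by
    linear_combination (σ (G x)) * ec + (G x) * ec' -
      ((a - c) * G x * σ (G x)) * two_eq (F := F)
  have f1 := (mul_eq_zero.1 e1).resolve_right hB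
  have f2 := (mul_eq_zero.1 e2).resolve_right hB
  linear_combination f1 - f2

/-- semilinearity over the fixed field -/
theorem semi {l x y : F} (hl : σ l = l) (hy : y ≠ 0) : G (l * x) = G (l * y) / G y * G x := by
  by_cases hx : x = 0
  · rw [hx, mul_zero, h.zero, mul_zero]
  have hGx : G x ≠ 0 := fun e => hx (h.inj x e)
  suffices e : G (l * x) / G x = G (l * y) / G y by rw [← e, div_mul_cancel₀ _ hGx]
  by_cases hb : x * σ y + y * σ x = 0
  · obtain ⟨t, ht⟩ := exists_trace_eq_one F q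
    have t0 : t ≠ 0 := by rintro rfl; simp at ht
    have hσx : σ x ≠ 0 := conj_ne_zero.2 hx
    have hσy : σ y ≠ 0 := conj_ne_zero.2 hy
    have b1 : x * σ (t * x) + t * x * σ x ≠ 0 := by
      rw [map_mul, show x * (σ t * σ x) + t * x * σ x = (t + σ t) * (x * σ x) by ring, ht, one_mul]
      exact mul_ne_zero hx hσx
    have b2 : y * σ (t * x) + t * x * σ y ≠ 0 := by
      rw [map_mul, show y * (σ t * σ x) + t * x * σ y = (t + σ t) * (x * σ y) +
        σ t * (x * σ y + y * σ x) - (σ t * x * σ y) * 2 by ring, ht, hb, two_eq]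
      simpa using ⟨hx, hy⟩
    rw [h.semi_aux hl hx (mul_ne_zero t0 hx) b1, h.semi_aux hl hy (mul_ne_zero t0 hx) b2]
  · exact h.semi_aux hl hx hy hb

/-- isometries are rotations or reflections -/
theorem rot (hH : ∀ a, σ a = a → H a = a) :
    ∃ r : F, r * σ r = 1 ∧ ((∀ y, G y = r * y) ∨ ∀ y, G y = r * σ y) := by
  have n1 : G 1 * σ (G 1) = 1 := by
    rw [h.nrm, map_one, mul_one, hH 1 (map_one _)]
  refine ⟨G 1, n1, ?_⟩
  have key : ∀ y, G y = G 1 * y ∨ G y = G 1 * σ y := by
    intro y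
    have e1 := h.nrm y
    have e2 := h.bil y 1
    rw [hH _ (by simp [conj_conj, mul_comm])] at e1
    rw [hH _ (by simp [conj_conj, add_comm]), map_one] at e2
    have : (G y - G 1 * y) * (G y - G 1 * σ y) = 0 := by
      linear_combination (G 1 * G 1) * e1 + (G 1 * G y) * e2 - (G y * G y) * n1 +
        (G 1 * G 1 * y * σ y - G 1 * G 1 * G y * σ (G y)) * two_eq (F := F)
    rcases mul_eq_zero.1 this with e | e
    · exact Or.inl (by linear_combination e)
    · exact Or.inr (by linear_combination e)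
  have r0 : G 1 ≠ 0 := fun e => one_ne_zero (h.inj 1 e)
  by_contra hc
  push Not at hc
  obtain ⟨⟨y, hy⟩, z, hz⟩ := hc
  have ey := (key y).resolve_left hy
  have ez := (key z).resolve_right hz
  rcases key (y + z) with e | e
  · rw [h.add, ez] at e
    exact hy (by linear_combination e)
  · rw [h.add, ey, map_add] at e
    exact hz (by linear_combination e)

/-- an involutory pair acts trivially on the centre -/
theorem hfix (hG : ∀ x, G (G x) = x) (a : F) (ha : σ a = a) : H a = a := by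
  have := hU.finite
  have t2 := two_eq (F := F)
  have fixadd : ∀ y, G (y + G y) = y + G y := fun y => by rw [h.add, hG, add_comm]
  obtain ⟨x, hx0, hx⟩ : ∃ x, x ≠ 0 ∧ G x = x := by
    by_cases e : 1 + G 1 = 0
    · exact ⟨1, one_ne_zero, by linear_combination e - (1 : F) * t2⟩
    · exact ⟨_, e, fixadd 1⟩
  have hσx : σ x ≠ 0 := conj_ne_zero.2 hx0
  let μ : F → F := fun l => G (l * x) / x
  have hμ : ∀ l, σ l = l → ∀ y, G (l * y) = μ l * G y := fun l hl y => by
    rw [h.semi hl hx0, hx]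
  have μx : ∀ l, G (l * x) = μ l * x := fun l => by simp only [μ]; rw [div_mul_cancel₀ _ hx0]
  have μadd : ∀ l m, μ (l + m) = μ l + μ m := fun l m => by
    simp only [μ]; rw [add_mul, h.add, add_div]
  have μσ : ∀ l, σ l = l → σ (μ l) = μ l := fun l hl => by
    have e := h.bil x (l * x)
    rw [show x * σ (l * x) + l * x * σ x = 0 by
      rw [map_mul, hl]; linear_combination (l * x * σ x) * t2, h.hzero, μx, hx, map_mul] at e
    have : (σ (μ l) - μ l) * (x * σ x) = 0 := by linear_combination e - (μ l * x * σ x) * t2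
    linear_combination (mul_eq_zero.1 this).resolve_right (mul_ne_zero hx0 hσx)
  have μmul : ∀ l m, σ l = l → μ (l * m) = μ l * μ m := fun l m hl => by
    apply mul_right_cancel₀ hx0
    rw [← μx, mul_assoc, hμ l hl, μx, mul_assoc]
  have μμ : ∀ l, σ l = l → μ (μ l) = l := fun l hl => by
    apply mul_right_cancel₀ hx0
    rw [← μx, ← μx, hG]
  have μ1 : μ 1 = 1 := by simp only [μ]; rw [one_mul, hx, div_self hx0]
  have sqrt : ∀ c, σ c = c → ∃ j, σ j = j ∧ j * j = c := fun c hc => by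
    obtain ⟨j, hj⟩ := (Finite.surjective_of_injective (frobenius_inj F 2)) c
    have hj' : j * j = c := by rw [← hj, frobenius_def, sq]
    refine ⟨j, ?_, hj'⟩
    apply frobenius_inj F 2
    rw [frobenius_def, frobenius_def, sq, sq, ← map_mul, hj', hc]
  have nx : σ (x * σ x) = x * σ x := by simp [conj_conj, mul_comm]
  have Hμ : ∀ l, σ l = l → H (l * (x * σ x)) = μ l * (x * σ x) := fun l hl => by
    obtain ⟨j, hj, rfl⟩ := sqrt l hl
    have e := h.nrm (j * x)
    rw [μx, map_mul, map_mul, hj, μσ j hj] at e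
    rw [μmul _ _ hj, show j * j * (x * σ x) = j * x * (j * σ x) by ring, ← e]; ring
  have Hfix : ∀ c, σ c = c → H c = c → μ (c / (x * σ x)) = c / (x * σ x) := fun c hc e => by
    have := Hμ (c / (x * σ x)) (by rw [map_div₀, hc, nx])
    rw [div_mul_cancel₀ _ (mul_ne_zero hx0 hσx), e] at this
    rw [eq_div_iff (mul_ne_zero hx0 hσx), ← this]
  by_contra hne
  obtain ⟨l, hl, hl'⟩ : ∃ l, σ l = l ∧ μ l ≠ l := by
    refine ⟨a / (x * σ x), by rw [map_div₀, ha, nx], fun e => hne ?_⟩
    have := Hμ (a / (x * σ x)) (by rw [map_div₀, ha, nx])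
    rwa [e, div_mul_cancel₀ _ (mul_ne_zero hx0 hσx)] at this
  have d0 : l + μ l ≠ 0 := fun e => hl' (by linear_combination e - l * t2)
  have dσ : σ (l + μ l) = l + μ l := by rw [map_add, hl, μσ l hl]
  have dμ : μ (l + μ l) = l + μ l := by rw [μadd, μμ l hl, add_comm]
  have μdiv : ∀ c d, σ d = d → d ≠ 0 → μ d = d → μ (c / d) = μ c / d := fun c d hd hd0 e => by
    have := μmul d (c / d) hd
    rw [mul_div_cancel₀ _ hd0, e] at this
    rw [eq_div_iff hd0, this, mul_comm]
  obtain ⟨θ, θσ, θμ⟩ : ∃ θ, σ θ = θ ∧ μ θ = θ + 1 := by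
    refine ⟨l / (l + μ l), by rw [map_div₀, hl, dσ], ?_⟩
    rw [μdiv _ _ dσ d0 dμ]
    field_simp
    linear_combination (-l) * t2
  -- a second fixed vector
  obtain ⟨z, hz, hb⟩ : ∃ z, G z = z ∧ x * σ z + z * σ x ≠ 0 := by
    obtain ⟨t, ht⟩ := exists_trace_eq_one F q
    by_contra hc
    push Not at hc
    have e1 := hc _ (fixadd (t * x))
    have e2 := hc _ (fixadd (θ * (t * x)))
    rw [hμ θ θσ, θμ] at e2
    simp only [map_add, map_mul, θσ, map_one] at e1 e2
    have e3 : x * σ (G (t * x)) + G (t * x) * σ x = 0 := by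
      linear_combination e2 - θ * e1
    have e4 := h.bil x (t * x)
    rw [hx, e3] at e4
    have := h.hinj _ (by simp [conj_conj, mul_comm, add_comm]) e4.symm
    rw [map_mul] at this
    have e5 : (t + σ t) * (x * σ x) = 0 := by linear_combination this
    rw [ht, one_mul] at e5
    exact mul_ne_zero hx0 hσx e5
  set n := x * σ x with hn
  have n0 : n ≠ 0 := mul_ne_zero hx0 hσx
  set b := x * σ z + z * σ x with hbdef
  have bσ : σ b = b := by simp [hbdef, conj_conj, mul_comm, add_comm]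
  have mσ : σ (z * σ z) = z * σ z := by simp [conj_conj, mul_comm]
  have bμ : μ (b / n) = b / n := Hfix b bσ (by rw [← h.bil, hx, hz])
  have mμ : μ (z * σ z / n) = z * σ z / n := Hfix _ mσ (by rw [← h.nrm, hz])
  have b0 : b / n ≠ 0 := div_ne_zero hb n0
  have bσ' : σ (b / n) = b / n := by rw [map_div₀, bσ, nx]
  -- the fixed field of `μ`
  let A : AddSubgroup F :=
    { carrier := {c | σ c = c ∧ μ c = c}
      add_mem' := fun {c d} hc hd => ⟨by rw [map_add, hc.1, hd.1], by rw [μadd, hc.2, hd.2]⟩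
      zero_mem' := ⟨map_zero _, by simp only [μ]; rw [zero_mul, h.zero, zero_div]⟩
      neg_mem' := fun {c} hc => by rw [CharTwo.neg_eq]; exact hc }
  let P : A →+ A :=
    { toFun := fun c => ⟨c * c + c, by rw [map_add, map_mul, c.2.1],
        by rw [μadd, μmul _ _ c.2.1, c.2.2]⟩
      map_zero' := Subtype.ext (by simp)
      map_add' := fun c d => Subtype.ext (by
        simp only [AddSubgroup.coe_add]; linear_combination ((c : F) * d) * t2) }
  have hker : Nat.card P.ker = 2 := by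
    rw [Nat.card_eq_two_iff]
    refine ⟨0, ⟨⟨1, map_one _, μ1⟩, Subtype.ext (by simp [P, CharTwo.add_self_eq_zero])⟩, ?_, ?_⟩
    · intro e
      have := congrArg (fun c : P.ker => ((c : A) : F)) e
      simp at this
    · ext c
      simp only [Set.mem_insert_iff, Set.mem_singleton_iff, Set.mem_univ, iff_true]
      have e : ((c : A) : F) * (((c : A) : F) + 1) = 0 := by
        have := congrArg Subtype.val (AddMonoidHom.mem_ker.1 c.2)
        simp only [P, AddMonoidHom.coe_mk, ZeroHom.coe_mk, ZeroMemClass.coe_zero] at this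
        linear_combination this
      rcases mul_eq_zero.1 e with e | e
      · exact Or.inl (Subtype.ext (Subtype.ext e))
      · exact Or.inr (Subtype.ext (Subtype.ext (by
          change ((c : A) : F) = 1
          linear_combination e - (1 : F) * t2)))
  have hidx : P.range.index = 2 := by
    have e1 := P.range.index_mul_card
    have e2 := P.ker.index_mul_card
    rw [AddSubgroup.index_ker, hker] at e2
    have : 0 < Nat.card P.range := Nat.card_pos
    apply Nat.eq_of_mul_eq_mul_right this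
    rw [e1, ← e2, mul_comm]
  let e : A := ⟨θ * θ + θ, by rw [map_add, map_mul, θσ], by
    rw [μadd, μmul _ _ θσ, θμ]; linear_combination (θ + 1) * t2⟩
  have he : e ∉ P.range := by
    rintro ⟨c, hc⟩
    have hc' : ((c : F) - θ) * ((c : F) - θ - 1) = 0 := by
      have := congrArg Subtype.val hc
      simp only [P, AddMonoidHom.coe_mk, ZeroHom.coe_mk, e] at this
      linear_combination this + (θ * θ + θ - c * θ - c) * t2
    have c2 := c.2.2
    rcases mul_eq_zero.1 hc' with f | f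
    · rw [show (c : F) = θ by linear_combination f, θμ] at c2
      exact one_ne_zero (by linear_combination c2)
    · rw [show (c : F) = θ + 1 by linear_combination f, μadd, θμ, μ1] at c2
      exact one_ne_zero (by linear_combination c2)
  let c : A := ⟨z * σ z / n / (b / n) / (b / n), by rw [map_div₀, map_div₀, map_div₀, mσ, nx, bσ'],
    by rw [μdiv _ _ bσ' b0 bμ, μdiv _ _ bσ' b0 bμ, mμ]⟩
  obtain ⟨v, vσ, hv⟩ : ∃ v : F, σ v = v ∧ v * v + v = c := by
    by_cases hc : c ∈ P.range
    · obtain ⟨v, hv⟩ := hc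
      exact ⟨v, v.2.1, congrArg Subtype.val hv⟩
    · have : c + e ∈ P.range := (AddSubgroup.add_mem_iff_of_index_two hidx).2 (by simp [hc, he])
      obtain ⟨v, hv⟩ := this
      refine ⟨v + θ, by rw [map_add, v.2.1, θσ], ?_⟩
      have := congrArg Subtype.val hv
      simp only [P, AddMonoidHom.coe_mk, ZeroHom.coe_mk, e, AddSubgroup.coe_add] at this
      linear_combination this + (θ * θ + θ + v * θ) * t2
  have hw : (b / n * v * x + z) * σ (b / n * v * x + z) = 0 := by
    simp only [map_add, map_mul, bσ', vσ]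
    have hv' : (v * v + v) * (b / n * (b / n)) * n = z * σ z := by
      rw [hv]; simp only [c]; field_simp
    have hb' : b / n * n = x * σ z + z * σ x := div_mul_cancel₀ _ n0
    linear_combination hv' - (b / n * v) * hb' + (z * σ z) * t2 + (b / n * v * (b / n * v)) * hn
  have hw' : b / n * v * x + z = 0 := by
    rcases mul_eq_zero.1 hw with f | f
    · exact f
    · exact conj_eq_zero.1 f
  apply hb
  have : z = b / n * v * x := by linear_combination hw' - (b / n * v * x) * t2
  have hz' := congrArg σ this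
  rw [map_mul, map_mul, bσ', vσ] at hz'
  rw [hbdef]
  linear_combination x * hz' + σ x * this + (b / n * v * x * σ x) * t2

end Iso

/-- the element of `UH` with given first coordinate -/
noncomputable def sec (q : ℕ) [UF F q] (c : F) : UH F q := (UH.exists_c (q := q) c).choose

theorem sec_c (c : F) : (sec q c).c = c := (UH.exists_c (q := q) c).choose_spec

/-- the central element with given second coordinate -/
def cen {a : F} (ha : σ a = a) : UH F q :=
  ⟨0, a, by rw [ha]; linear_combination a * two_eq (F := F)⟩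

theorem c_map_eq_zero (g : MulAut (UH F q)) {x : UH F q} : (g x).c = 0 ↔ x.c = 0 := by
  rw [← UH.mul_self_eq_one_iff, ← UH.mul_self_eq_one_iff, ← map_mul, map_eq_one_iff _ g.injective]

theorem conj_a_of {x : UH F q} (hx : x.c = 0) : σ x.a = x.a := by
  rw [UH.conj_a, hx]; simp [CharTwo.neg_eq]

theorem c_inv_mul {x y : UH F q} : (x⁻¹ * y).c = 0 ↔ y.c = x.c := by
  rw [UH.mul_c, UH.inv_c, neg_add_eq_zero, eq_comm]

/-- action on `Q / Z` -/
noncomputable def GG (g : MulAut (UH F q)) (c : F) : F := (g (sec q c)).c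

open Classical in
/-- action on `Z` -/
noncomputable def HH (g : MulAut (UH F q)) (a : F) : F := if ha : σ a = a then (g (cen ha)).a else 0

theorem GG_c (g : MulAut (UH F q)) (x : UH F q) : (g x).c = GG g x.c := by
  rw [GG, ← c_inv_mul, ← map_inv, ← map_mul, c_map_eq_zero, c_inv_mul, sec_c]

theorem HH_a (g : MulAut (UH F q)) {x : UH F q} (hx : x.c = 0) : (g x).a = HH g x.a := by
  rw [HH, dif_pos (conj_a_of hx)]
  congr 2
  ext
  · exact hx
  · rfl

theorem iso (g : MulAut (UH F q)) : Iso q (GG g) (HH g) where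
  add x y := by
    have := GG_c g (sec q x * sec q y)
    rw [map_mul, UH.mul_c, UH.mul_c, sec_c, sec_c] at this
    exact this.symm
  inj x hx := by rw [← sec_c (q := q) x]; exact (c_map_eq_zero g).1 hx
  hadd a b ha hb := by
    have := HH_a g (x := cen ha * cen hb) (by simp [cen])
    rw [map_mul, UH.mul_a, UH.mul_a, (c_map_eq_zero g).2 (rfl : (cen hb).c = 0),
      HH_a g (rfl : (cen ha).c = 0), HH_a g (rfl : (cen hb).c = 0)] at this
    simpa [cen] using this.symm
  hinj a ha e := by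
    have e1 : g (cen ha) = 1 := by
      ext
      · exact (c_map_eq_zero g).2 rfl
      · rw [HH_a g (rfl : (cen ha).c = 0)]; exact e
    exact congrArg UH.a ((map_eq_one_iff _ g.injective).1 e1)
  nrm x := by
    have := HH_a g (UH.mul_self_c (sec q x))
    rw [map_mul, UH.mul_self_a, UH.mul_self_a, sec_c] at this
    exact this

theorem fix_cen {g : MulAut (UH F q)} (hg : ∀ x, g (g x) = x) {z : UH F q} (hz : z.c = 0) :
    g z = z := by
  ext
  · rw [hz]; exact (c_map_eq_zero g).2 hz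
  · rw [HH_a g hz]
    refine (iso g).hfix (fun c => ?_) _ (conj_a_of hz)
    have := GG_c g (g (sec q c))
    rw [hg, sec_c] at this
    exact this.symm

theorem rot_of {g : MulAut (UH F q)} (hg : ∀ z : UH F q, z.c = 0 → g z = z) :
    ∃ r : F, r * σ r = 1 ∧ ((∀ y, (g y).c = r * y.c) ∨ ∀ y, (g y).c = r * σ y.c) := by
  obtain ⟨r, hr, h⟩ := (iso g).rot (fun a ha => by
    have := HH_a g (rfl : (cen ha).c = 0)
    rw [hg _ rfl] at this
    exact this.symm)
  refine ⟨r, hr, h.imp (fun h y => ?_) fun h y => ?_⟩ <;> rw [GG_c, h]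

theorem triv_of_rot {g : MulAut (UH F q)} {r : F} (h : ∀ y, (g y).c = r * y.c) {k : ℕ}
    (hk : g ^ 2 ^ k = 1) (y : UH F q) : (g y).c = y.c := by
  have e : ∀ n : ℕ, ∀ y, ((g ^ n) y).c = r ^ n * y.c := fun n => by
    induction n with
    | zero => simp
    | succ n ih => intro y; rw [pow_succ', MulAut.mul_apply, h, ih, pow_succ']; ring
  have := e (2 ^ k) (sec q 1)
  rw [hk, MulAut.one_apply, sec_c, mul_one] at this
  have r1 : r = 1 := by
    have e1 : (r - 1) ^ 2 ^ k = 0 := by rw [sub_pow_char_pow, ← this]; simp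
    exact sub_eq_zero.1 (pow_eq_zero_iff (by positivity) |>.1 e1)
  rw [h, r1, one_mul]

theorem triv_or {g h : MulAut (UH F q)} (hg : ∀ z : UH F q, z.c = 0 → g z = z)
    (hh : ∀ z : UH F q, z.c = 0 → h z = z) {i j k : ℕ} (hi : g ^ 2 ^ i = 1) (hj : h ^ 2 ^ j = 1)
    (hk : (g * h) ^ 2 ^ k = 1) :
    (∀ y, (g y).c = y.c) ∨ (∀ y, (h y).c = y.c) ∨ ∀ y, ((g * h) y).c = y.c := by
  obtain ⟨r, -, e | e⟩ := rot_of hg
  · exact Or.inl (triv_of_rot e hi)
  obtain ⟨s, -, f | f⟩ := rot_of hh
  · exact Or.inr (Or.inl (triv_of_rot f hj))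
  refine Or.inr (Or.inr (triv_of_rot (r := r * σ s) (fun y => ?_) hk))
  rw [MulAut.mul_apply, e, f, map_mul, conj_conj, mul_assoc]

theorem refl_of {g : MulAut (UH F q)} (hg : ∀ x, g (g x) = x) (hn : ¬ ∀ y, (g y).c = y.c) :
    ∃ r : F, r * σ r = 1 ∧ (∀ y, (g y).c = r * σ y.c) ∧
      ∀ c : F, r * σ c = c → ∃ x : UH F q, x.c = c ∧ g x = x⁻¹ := by
  obtain ⟨r, hr, e | e⟩ := rot_of (fun z hz => fix_cen hg hz)
  · exact (hn (triv_of_rot e (k := 1) (by ext1 x; rw [pow_one, sq, MulAut.mul_apply, hg]; rfl))).elim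
  refine ⟨r, hr, e, fun c hc => ?_⟩
  obtain ⟨t, ht⟩ := exists_trace_eq_one F q
  refine ⟨(sec q (t * c))⁻¹ * g (sec q (t * c)), ?_, by rw [map_mul, map_inv, hg]; group⟩
  rw [UH.mul_c, UH.inv_c, e, sec_c, map_mul, CharTwo.neg_eq]
  linear_combination c * ht + σ t * hc

theorem sq_of_fix {g : MulAut (UH F q)} (hg : ∀ x, g (g x) = x) (hn : ¬ ∀ y, (g y).c = y.c)
    {x : UH F q} (hx : g x = x) : x.c = 0 := by
  obtain ⟨r, -, e, f⟩ := refl_of hg hn
  obtain ⟨y, hy, hy'⟩ := f x.c (by rw [← e, hx])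
  have := fix_cen hg (c_inv_mul.2 hy.symm)
  rw [map_mul, map_inv, hy', hx, inv_inv, mul_left_inj] at this
  rw [← hy, ← UH.mul_self_eq_one_iff]
  exact mul_eq_one_iff_eq_inv.2 this

theorem exists_inverted {g : MulAut (UH F q)} (hg : ∀ x, g (g x) = x)
    (hn : ¬ ∀ y, (g y).c = y.c) {v : UH F q} (hv : v.c = 0) : ∃ x, x * x = v ∧ g x = x⁻¹ := by
  have := hU.finite
  obtain ⟨r, hr, -, f⟩ := refl_of hg hn
  obtain ⟨s, s0, hs⟩ := exists_conj_div_eq (q := q) (e := σ r) (by rw [conj_conj, mul_comm, hr])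
  have n0 : s * σ s ≠ 0 := mul_ne_zero s0 (conj_ne_zero.2 s0)
  obtain ⟨j, hj⟩ := (Finite.surjective_of_injective (frobenius_inj F 2)) (v.a / (s * σ s))
  have hj' : j * j = v.a / (s * σ s) := by rw [← hj, frobenius_def, sq]
  have jσ : σ j = j := by
    apply frobenius_inj F 2
    rw [frobenius_def, frobenius_def, sq, sq, ← map_mul, hj', map_div₀, conj_a_of hv, map_mul,
      conj_conj, mul_comm]
  obtain ⟨x, hx, hx'⟩ := f (j * s) (by
    rw [map_mul, jσ, hs]; linear_combination (j * s) * hr)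
  refine ⟨x, ?_, hx'⟩
  ext
  · rw [UH.mul_self_c, hv]
  · rw [UH.mul_self_a, hx, map_mul, jσ, show j * s * (j * σ s) = j * j * (s * σ s) by ring, hj',
      div_mul_cancel₀ _ n0]

section
variable {G : Type*} [Group G]

/-- `g` acts trivially on `Q / Ω₁(Q)` -/
def Tr (Q : Subgroup G) (g : G) : Prop :=
  ∀ x ∈ Q, (x⁻¹ * (g * x * g⁻¹)) * (x⁻¹ * (g * x * g⁻¹)) = 1

/-- `g` centralises the involutions of `Q` -/
def CZ (Q : Subgroup G) (g : G) : Prop := ∀ z ∈ Q, z * z = 1 → g * z = z * g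

/-- `g²` centralises `Q` -/
def Sq (Q : Subgroup G) (g : G) : Prop := ∀ x ∈ Q, g * g * x = x * (g * g)

/-- facts on the automorphisms of a Sylow 2-subgroup of `PSU₃(2ⁿ)` -/
structure UA (Q : Subgroup G) : Prop where
  cz : ∀ g ∈ normalizer (Q : Set G), Sq Q g → CZ Q g
  two : ∀ g ∈ normalizer (Q : Set G), ∀ h ∈ normalizer (Q : Set G), CZ Q g → CZ Q h →
    ∀ i j k : ℕ, g ^ 2 ^ i = 1 → h ^ 2 ^ j = 1 → (g * h) ^ 2 ^ k = 1 → Tr Q g ∨ Tr Q h ∨ Tr Q (g * h)
  fix : ∀ g ∈ normalizer (Q : Set G), Sq Q g → ¬ Tr Q g → ∀ x ∈ Q, g * x = x * g → x * x = 1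
  inv : ∀ g ∈ normalizer (Q : Set G), Sq Q g → ¬ Tr Q g → ∀ v ∈ Q, v * v = 1 →
    ∃ x ∈ Q, x * x = v ∧ g * x * g⁻¹ = x⁻¹

theorem UA.of_equiv {Q : Subgroup G} (e : UH F q ≃* Q) : UA Q := by
  obtain ⟨φ, hφ⟩ : ∃ φ : normalizer (Q : Set G) →* MulAut (UH F q),
      ∀ (g : normalizer (Q : Set G)) (x : UH F q), (e (φ g x) : G) = g * e x * (g : G)⁻¹ :=
    ⟨(MulAut.congr e.symm).toMonoidHom.comp Q.normalizerMonoidHom, fun g x => by
      simp [MulAut.congr]⟩
  have c0 : ∀ x : UH F q, x.c = 0 ↔ (e x : G) * e x = 1 := fun x => by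
    rw [← UH.mul_self_eq_one_iff, ← Subgroup.coe_mul, ← map_mul, OneMemClass.coe_eq_one,
      map_eq_one_iff _ e.injective]
  have ext : ∀ x y : UH F q, (e x : G) = e y → x = y := fun x y h =>
    e.injective (Subtype.ext h)
  have sur : ∀ x ∈ Q, ∃ y, (e y : G) = x := fun x hx => ⟨e.symm ⟨x, hx⟩, by simp⟩
  have hsq : ∀ g : normalizer (Q : Set G), Sq Q g → ∀ x, φ g (φ g x) = x := fun g hg x => by
    apply ext
    rw [hφ, hφ, show (g : G) * (g * e x * (g : G)⁻¹) * (g : G)⁻¹ = g * g * e x * ((g : G) * g)⁻¹ by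
      group, hg _ (e x).2, mul_inv_cancel_right]
  have htr : ∀ g : normalizer (Q : Set G), Tr Q g ↔ ∀ y, (φ g y).c = y.c := fun g => by
    constructor
    · intro h y
      rw [← c_inv_mul, c0, map_mul, map_inv, Subgroup.coe_mul, Subgroup.coe_inv, hφ]
      exact h _ (e y).2
    · intro h x hx
      obtain ⟨y, rfl⟩ := sur x hx
      have := (c0 _).1 (c_inv_mul.2 (h y))
      rwa [map_mul, map_inv, Subgroup.coe_mul, Subgroup.coe_inv, hφ] at this
  have hcz : ∀ g : normalizer (Q : Set G), CZ Q g ↔ ∀ z : UH F q, z.c = 0 → φ g z = z := fun g => by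
    constructor
    · intro h z hz
      apply ext
      rw [hφ, h _ (e z).2 ((c0 z).1 hz), mul_inv_cancel_right]
    · intro h z hz hz2
      obtain ⟨y, rfl⟩ := sur z hz
      have := hφ g y
      rw [h y ((c0 y).2 hz2)] at this
      rw [← mul_inv_eq_iff_eq_mul, ← this]
  refine ⟨fun g hg h => (hcz ⟨g, hg⟩).2 fun z hz => fix_cen (hsq ⟨g, hg⟩ h) hz,
    fun g hg h hh cg ch i j k hi hj hk => ?_, fun g hg h hn x hx e1 => ?_,
    fun g hg h hn v hv hv2 => ?_⟩
  · have p : ∀ (u : normalizer (Q : Set G)) (n : ℕ), (u : G) ^ n = 1 → φ u ^ n = 1 := fun u n hu => by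
      rw [← map_pow, show u ^ n = 1 from Subtype.ext hu, map_one]
    have e3 := p ⟨g * h, mul_mem hg hh⟩ _ hk
    have e4 : φ ⟨g * h, mul_mem hg hh⟩ = φ ⟨g, hg⟩ * φ ⟨h, hh⟩ := by rw [← map_mul]; rfl
    rw [e4] at e3
    have := triv_or ((hcz ⟨g, hg⟩).1 cg) ((hcz ⟨h, hh⟩).1 ch) (p ⟨g, hg⟩ _ hi) (p ⟨h, hh⟩ _ hj) e3
    rw [← e4] at this
    exact this.imp (htr ⟨g, hg⟩).2 (Or.imp (htr ⟨h, hh⟩).2 (htr ⟨g * h, mul_mem hg hh⟩).2)
  · obtain ⟨y, rfl⟩ := sur x hx
    refine (c0 y).1 (sq_of_fix (hsq ⟨g, hg⟩ h) (fun f => hn ((htr ⟨g, hg⟩).2 f)) (ext _ _ ?_))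
    rw [hφ, mul_inv_eq_iff_eq_mul]; exact e1
  · obtain ⟨y, rfl⟩ := sur v hv
    obtain ⟨x, hx, hx'⟩ := exists_inverted (hsq ⟨g, hg⟩ h) (fun f => hn ((htr ⟨g, hg⟩).2 f))
      ((c0 y).2 hv2)
    refine ⟨e x, (e x).2, by rw [← hx, map_mul, Subgroup.coe_mul], ?_⟩
    have := hφ ⟨g, hg⟩ x
    rw [hx', map_inv, Subgroup.coe_inv] at this
    exact this.symm

end

end Cfsg.Agent.Hir
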